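import Cfsg.Agent.H790.ExcAbTw
import Cfsg.Agent.H892.HT.Disp

/-!
# S4933, box exc.AB (helper726): when are the Sylow `p`-subgroups of the exceptional groups non-abelian?

From `¬ Ab p G`, `p` odd and not dividing `q`:

* `E6(q)`: `p = 3`, or `p = 5 ∣ q - 1`;
* `2E6(q)`: `p = 3`, or `p = 5 ∣ q + 1`;
* `E7(q)`: `p = 3`, or `p = 5 ∣ q ^ 2 - 1`, or `p = 7 ∣ q ^ 2 - 1`;
* `E8(q)`: `p = 3`, or `p = 5`, or `p = 7 ∣ q ^ 2 - 1`;
* `G2(q)`, `F4(q)`, `3D4(q)`, `2F4(q)`: `p = 3`.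
-/

set_option autoImplicit false

open Cfsg Cfsg.Agent.H790.ExcAb

namespace Cfsg.Agent.H726.HT

open Cfsg.Agent.H892.HT (Ab)

theorem ab_of_abP {p : ℕ} {K : Type} [Group K] (h : AbP p K) : Ab p K := fun P => h.sylow P

theorem not_abP {p : ℕ} {K : Type} [Group K] (h : ¬ Ab p K) : ¬ AbP p K := fun h' => h (ab_of_abP h')

/-- an odd prime is `3` or at least `5` -/
theorem three_or_five {p : ℕ} [hp : Fact p.Prime] (h2 : p ≠ 2) : p = 3 ∨ 5 ≤ p := by
  by_cases h3 : p = 3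
  · exact Or.inl h3
  · right
    have := hp.out.two_le
    have h4 : p ≠ 4 := by
      rintro rfl
      exact absurd hp.out (by norm_num)
    omega

/-- an odd prime is `3`, `5` or at least `7` -/
theorem three_five_or_seven {p : ℕ} [hp : Fact p.Prime] (h2 : p ≠ 2) : p = 3 ∨ p = 5 ∨ 7 ≤ p := by
  rcases three_or_five h2 with h | h
  · exact Or.inl h
  · right
    have h6 : p ≠ 6 := by
      rintro rfl
      exact absurd hp.out (by norm_num)
    omega

section split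
variable {p : ℕ} [Fact p.Prime] {F : Type} [Field F] [Fintype F]

theorem g2_cases (h2 : p ≠ 2) (hq : ¬ p ∣ Fintype.card F) (h : ¬ Ab p (Lie.chevG2.group F)) : p = 3 := by
  rcases three_or_five h2 with h3 | h5
  · exact h3
  · exact absurd (G2 rfl hq h5) (not_abP h)

theorem f4_cases (h2 : p ≠ 2) (hq : ¬ p ∣ Fintype.card F) (h : ¬ Ab p (Lie.chevF4.group F)) : p = 3 := by
  rcases three_or_five h2 with h3 | h5
  · exact h3
  · exact absurd (F4 rfl hq h5) (not_abP h)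

theorem e6_cases (h2 : p ≠ 2) (hq : ¬ p ∣ Fintype.card F) (h : ¬ Ab p (Lie.chevE6.group F)) :
    p = 3 ∨ (p = 5 ∧ Fintype.card F % 5 = 1) := by
  rcases three_or_five h2 with h3 | h5
  · exact Or.inl h3
  · by_contra hc
    push Not at hc
    exact not_abP h (E6 rfl hq h5 fun h => hc.2 h)

theorem e7_cases (h2 : p ≠ 2) (hq : ¬ p ∣ Fintype.card F) (h : ¬ Ab p (Lie.chevE7.group F)) :
    p = 3 ∨ (p = 5 ∧ (Fintype.card F % 5 = 1 ∨ Fintype.card F % 5 = 4)) ∨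
      (p = 7 ∧ (Fintype.card F % 7 = 1 ∨ Fintype.card F % 7 = 6)) := by
  rcases three_or_five h2 with h3 | h5
  · exact Or.inl h3
  · by_contra hc
    push Not at hc
    exact not_abP h (E7 rfl hq h5 (fun h => hc.2.1 h) (fun h => hc.2.2 h))

theorem e8_cases (h2 : p ≠ 2) (hq : ¬ p ∣ Fintype.card F) (h : ¬ Ab p (Lie.chevE8.group F)) :
    p = 3 ∨ p = 5 ∨ (p = 7 ∧ (Fintype.card F % 7 = 1 ∨ Fintype.card F % 7 = 6)) := by
  rcases three_five_or_seven h2 with h3 | h5 | h7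
  · exact Or.inl h3
  · exact Or.inr (Or.inl h5)
  · by_contra hc
    push Not at hc
    exact not_abP h (E8 rfl hq h7 (fun h => hc.2.2 h))

end split

section tw
variable {p : ℕ} [Fact p.Prime] {F : Type} [Field F] [Fintype F] {q : ℕ}

theorem e6t_cases (h2 : p ≠ 2) (hq : IsPrimePow q) (hK : Fintype.card F = q ^ 2) (hpq : ¬ p ∣ q)
    (h : ¬ Ab p (Lie.twistedE6 F q)) : p = 3 ∨ (p = 5 ∧ q % 5 = 4) := by
  rcases three_or_five h2 with h3 | h5
  · exact Or.inl h3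
  · by_contra hc
    push Not at hc
    exact not_abP h (tw2E6 hq hK hpq h5 fun h => hc.2 h)

theorem d4t_cases (h2 : p ≠ 2) (hK : Fintype.card F = q ^ 3) (hpq : ¬ p ∣ q) (h : ¬ Ab p (Lie.twistedD4 F q)) :
    p = 3 := by
  rcases three_or_five h2 with h3 | h5
  · exact h3
  · exact absurd (tw3D4 hK hpq h5) (not_abP h)

theorem f4t_cases {e : ℕ} (h2 : p ≠ 2) (hK : Fintype.card F = q) (hpq : ¬ p ∣ q)
    (h : ¬ Ab p (Lie.twistedF4 F e)) : p = 3 := by
  rcases three_or_five h2 with h3 | h5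
  · exact h3
  · exact absurd (tw2F4 hK hpq h5) (not_abP h)

end tw

/-- the form of the field `f4t` of `OddRows` -/
theorem iso2F4_cases {p : ℕ} [hp : Fact p.Prime] {K : Type} [Group K] (h2 : p ≠ 2) (hK : Lie.Iso2F4 K ∧ ¬ Ab p K) :
    p = 3 := by
  obtain ⟨⟨F, _, _, m, hm, hF, ⟨e⟩⟩, hab⟩ := hK
  rcases three_or_five h2 with h3 | h5
  · exact h3
  · have hq : ¬ p ∣ 2 ^ (2 * m + 1) := fun h =>
      h2 ((Nat.prime_dvd_prime_iff_eq hp.out Nat.prime_two).1 (hp.out.dvd_of_dvd_pow h))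
    exact absurd ((tw2F4 hF hq h5).congr e) (not_abP hab)

end Cfsg.Agent.H726.HT
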